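import Mathlib

/-! Piece [A5] of the S3313 farm. -/

set_option autoImplicit false
set_option linter.unusedSectionVars false

namespace Cfsg.Agent.Lib.Helper24.J2Ord

/-- [A5] -/
theorem a5_15 : Nat.card {k : alternatingGroup (Fin 5) // k * k = 1 ∧ k ≠ 1} = 15 := by
  rw [Nat.card_eq_fintype_card]
  decide +kernel

lemma a5_5' : ∀ k : alternatingGroup (Fin 5), k * k = 1 → k ≠ 1 →
    ∃ k' : alternatingGroup (Fin 5), k' * k' = 1 ∧ k' ≠ 1 ∧ ((k * k') ^ 5 = 1 ∧ k * k' ≠ 1) := by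
  decide +kernel

/-- [A5] -/
theorem a5_5 : ∀ k : alternatingGroup (Fin 5), k * k = 1 → k ≠ 1 →
    ∃ k' : alternatingGroup (Fin 5), k' * k' = 1 ∧ k' ≠ 1 ∧ orderOf (k * k') = 5 := by
  intro k h1 h2
  obtain ⟨k', h3, h4, h5, h6⟩ := a5_5' k h1 h2
  have : Fact (Nat.Prime 5) := ⟨by norm_num⟩
  exact ⟨k', h3, h4, orderOf_eq_prime h5 h6⟩

lemma a5_orders : ∀ x : alternatingGroup (Fin 5), x ^ 2 = 1 ∨ x ^ 3 = 1 ∨ x ^ 5 = 1 := by
  decide +kernel

lemma a5_odd (x : alternatingGroup (Fin 5)) : Odd (orderOf x) ↔ x ^ 15 = 1 := by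
  constructor
  · intro h
    rcases a5_orders x with h2 | h2 | h2
    · have hd := orderOf_dvd_of_pow_eq_one h2
      have : orderOf x = 1 := by
        rcases (Nat.dvd_prime Nat.prime_two).1 hd with h3 | h3
        · exact h3
        · rw [h3] at h; exact absurd h (by decide)
      rw [orderOf_eq_one_iff.1 this, one_pow]
    · calc x ^ 15 = (x ^ 3) ^ 5 := by rw [← pow_mul]
        _ = 1 := by rw [h2, one_pow]
    · calc x ^ 15 = (x ^ 5) ^ 3 := by rw [← pow_mul]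
        _ = 1 := by rw [h2, one_pow]
  · intro h
    have hd := orderOf_dvd_of_pow_eq_one h
    exact Odd.of_dvd_nat (by decide) hd

lemma a5_195' : Fintype.card {p : alternatingGroup (Fin 5) × alternatingGroup (Fin 5) //
    p.1 * p.1 = 1 ∧ p.1 ≠ 1 ∧ p.2 * p.2 = 1 ∧ (p.1 * p.2) ^ 15 = 1} = 195 := by
  decide +kernel

/-- [A5] -/
theorem a5_195 : Nat.card {p : alternatingGroup (Fin 5) × alternatingGroup (Fin 5) //
    p.1 * p.1 = 1 ∧ p.1 ≠ 1 ∧ p.2 * p.2 = 1 ∧ Odd (orderOf (p.1 * p.2))} = 195 := by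
  simp only [a5_odd]
  rw [Nat.card_eq_fintype_card]
  exact a5_195'

end Cfsg.Agent.Lib.Helper24.J2Ord
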