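import Mathlib

/-! Definitions for S3313 (order of a group with the Hall-Janko involution pattern). -/

set_option autoImplicit false

namespace Cfsg.Agent.Lib.Helper24.J2Ord

/-- The abstract structure of `H = C_G(z) = Q K`, `Q` extraspecial of order `32`, `K ≅ A₅`. -/
structure Cfg (H : Type*) [Group H] (Q K : Subgroup H) (z : H) : Prop where
  zc : ∀ h : H, h * z = z * h
  z2 : z * z = 1
  z1 : z ≠ 1
  zQ : z ∈ Q
  nQ : ∀ h : H, ∀ a ∈ Q, h * a * h⁻¹ ∈ Q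
  cardQ : Nat.card Q = 32
  sq : ∀ a ∈ Q, a * a = 1 ∨ a * a = z
  comm : ∀ a ∈ Q, ∀ b ∈ Q, a * b = b * a ∨ a * b = b * a * z
  cen : ∀ a ∈ Q, (∀ b ∈ Q, a * b = b * a) → a = 1 ∨ a = z
  faith : ∀ h : H, (∀ a ∈ Q, h * a = a * h) → h ∈ Q
  KQ : ∀ h : H, ∃ b ∈ Q, ∃ k ∈ K, h = b * k
  KQ' : ∀ k ∈ K, k ∈ Q → k = 1
  K15 : Nat.card {k : H // k ∈ K ∧ k * k = 1 ∧ k ≠ 1} = 15
  K5 : ∀ k ∈ K, k * k = 1 → k ≠ 1 → ∃ k' ∈ K, k' * k' = 1 ∧ k' ≠ 1 ∧ orderOf (k * k') = 5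

variable {H : Type*} [Group H]

/-- the elements of `Q` of order at most 2. -/
def T (Q : Subgroup H) : Set H := {a | a ∈ Q ∧ a * a = 1}

/-- the non-central involutions of `Q`. -/
def I (Q : Subgroup H) (z : H) : Set H := {a | a ∈ Q ∧ a * a = 1 ∧ a ≠ 1 ∧ a ≠ z}

/-- the elements of `Q` fixed by `h` modulo `⟨z⟩`. -/
def D (Q : Subgroup H) (z : H) (h : H) : Set H :=
  {b | b ∈ Q ∧ (h * b * h⁻¹ = b ∨ h * b * h⁻¹ = b * z)}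

end Cfsg.Agent.Lib.Helper24.J2Ord
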