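import Mathlib
import Cfsg.Prelude.Def_Transfer
import Cfsg.Prelude.Def_Local
import Cfsg.Prelude.Def_TwoFusion

/-! Piece [F] of the S3313 farm. -/

set_option autoImplicit false
set_option linter.unusedSectionVars false

namespace Cfsg.Agent.Lib.Helper24.J2Ord

variable {G : Type*} [Group G] [Finite G]

lemma card_a5 : Nat.card (alternatingGroup (Fin 5)) = 60 := by
  rw [Nat.card_eq_fintype_card]
  decide +kernel

/-- if `A` normalizes `B`, `A ⊓ B = ⊥`, then `|A ⊔ B| = |A| |B|`. -/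
lemma card_sup_of_norm (A B : Subgroup G) (hn : ∀ a ∈ A, ∀ b ∈ B, a * b * a⁻¹ ∈ B)
    (hd : A ⊓ B = ⊥) : Nat.card ↥(A ⊔ B) = Nat.card A * Nat.card B := by
  classical
  -- the map `A × B → A ⊔ B`
  let f : ↥A × ↥B → ↥(A ⊔ B) := fun p =>
    ⟨(p.2 : G) * p.1, (A ⊔ B).mul_mem (Subgroup.mem_sup_right p.2.2) (Subgroup.mem_sup_left p.1.2)⟩
  have hinj : Function.Injective f := by
    rintro ⟨a, b⟩ ⟨a', b'⟩ h
    have h1 : (b : G) * a = b' * a' := congrArg Subtype.val h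
    have h2 : (b' : G)⁻¹ * b = a' * (a : G)⁻¹ := by
      calc (b' : G)⁻¹ * b = (b' : G)⁻¹ * (b * a) * (a : G)⁻¹ := by group
        _ = (b' : G)⁻¹ * (b' * a') * (a : G)⁻¹ := by rw [h1]
        _ = _ := by group
    have h3 : (b' : G)⁻¹ * b ∈ A ⊓ B :=
      ⟨by rw [h2]; exact A.mul_mem a'.2 (A.inv_mem a.2), B.mul_mem (B.inv_mem b'.2) b.2⟩
    rw [hd, Subgroup.mem_bot] at h3
    have h4 : (b : G) = b' := by
      rw [inv_mul_eq_one] at h3; exact h3.symm
    have h5 : (a : G) = a' := by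
      rw [h4] at h1; exact mul_left_cancel h1
    exact Prod.ext (Subtype.ext h5) (Subtype.ext h4)
  have hsurj : Function.Surjective f := by
    -- the set `B A` is a subgroup
    let S : Subgroup G :=
      { carrier := {x | ∃ b ∈ B, ∃ a ∈ A, x = b * a}
        one_mem' := ⟨1, B.one_mem, 1, A.one_mem, by simp⟩
        mul_mem' := by
          rintro _ _ ⟨b, hb, a, ha, rfl⟩ ⟨b', hb', a', ha', rfl⟩
          exact ⟨b * (a * b' * a⁻¹), B.mul_mem hb (hn a ha b' hb'), a * a', A.mul_mem ha ha',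
            by group⟩
        inv_mem' := by
          rintro _ ⟨b, hb, a, ha, rfl⟩
          refine ⟨a⁻¹ * b⁻¹ * a⁻¹⁻¹, hn a⁻¹ (A.inv_mem ha) b⁻¹ (B.inv_mem hb), a⁻¹, A.inv_mem ha,
            by group⟩ }
    have hle : A ⊔ B ≤ S := by
      apply sup_le
      · intro a ha; exact ⟨1, B.one_mem, a, ha, by simp⟩
      · intro b hb; exact ⟨b, hb, 1, A.one_mem, by simp⟩
    rintro ⟨x, hx⟩
    obtain ⟨b, hb, a, ha, rfl⟩ := hle hx
    exact ⟨(⟨a, ha⟩, ⟨b, hb⟩), rfl⟩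
  rw [← Nat.card_prod]
  exact (Nat.card_congr (Equiv.ofBijective f ⟨hinj, hsurj⟩)).symm

lemma pCore_normal24 (p : ℕ) (X : Type*) [Group X] : (Cfsg.pCore p X).Normal :=
  Subgroup.sSup_normal _ (fun _ h => h.1)

/-- [F] orders of the two centralizers. -/
theorem card_Cz (z : G)
    (hQ : Nat.card ↥(Cfsg.pCore 2 ↥(Subgroup.centralizer ({z} : Set G))) = 32)
    (K : Subgroup G) (hK : Nonempty (↥K ≃* alternatingGroup (Fin 5)))
    (hKC : K ⊔ (Cfsg.pCore 2 ↥(Subgroup.centralizer ({z} : Set G))).map (Subgroup.centralizer ({z} : Set G)).subtype = Subgroup.centralizer ({z} : Set G))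
    (hKQ : K ⊓ (Cfsg.pCore 2 ↥(Subgroup.centralizer ({z} : Set G))).map (Subgroup.centralizer ({z} : Set G)).subtype = ⊥) :
    Nat.card ↥(Subgroup.centralizer ({z} : Set G)) = 1920 := by
  obtain ⟨e⟩ := hK
  have hK60 : Nat.card ↥K = 60 := by rw [Nat.card_congr e.toEquiv, card_a5]
  have hKle : K ≤ Subgroup.centralizer ({z} : Set G) := by rw [← hKC]; exact le_sup_left
  have hn : ∀ a ∈ K, ∀ b ∈ (Cfsg.pCore 2 ↥(Subgroup.centralizer ({z} : Set G))).map
      (Subgroup.centralizer ({z} : Set G)).subtype, a * b * a⁻¹ ∈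
      (Cfsg.pCore 2 ↥(Subgroup.centralizer ({z} : Set G))).map
      (Subgroup.centralizer ({z} : Set G)).subtype := by
    rintro a ha _ ⟨b, hb, rfl⟩
    exact ⟨⟨a, hKle ha⟩ * b * ⟨a, hKle ha⟩⁻¹, (pCore_normal24 2 _).conj_mem b hb _, rfl⟩
  have h := card_sup_of_norm K _ hn hKQ
  rw [hKC, hK60, Subgroup.card_map_of_injective (Subgroup.subtype_injective _), hQ] at h
  rw [h]

/-- [F] -/
theorem card_Ct (t : G) (V B : Subgroup G)
    (hVB : Cfsg.IsInternalDirectProduct V B (Subgroup.centralizer ({t} : Set G)))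
    (hV : Nat.card ↥V = 4) (hB : Nonempty (↥B ≃* alternatingGroup (Fin 5))) :
    Nat.card ↥(Subgroup.centralizer ({t} : Set G)) = 240 := by
  obtain ⟨e⟩ := hB
  have hB60 : Nat.card ↥B = 60 := by rw [Nat.card_congr e.toEquiv, card_a5]
  obtain ⟨-, -, hc, hd, hs⟩ := hVB
  have hn : ∀ a ∈ V, ∀ b ∈ B, a * b * a⁻¹ ∈ B := by
    intro a ha b hb
    rw [hc a ha b hb]
    simpa using hb
  have h := card_sup_of_norm V B hn hd
  rw [hs, hV, hB60] at h
  rw [h]

end Cfsg.Agent.Lib.Helper24.J2Ord
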