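import Mathlib
import Cfsg.Prelude.Def_Transfer
import Cfsg.Prelude.Def_Local
import Cfsg.Prelude.Def_TwoFusion
import Cfsg.Agent.Lib.Helper24.J2Ord.Defs
import Cfsg.Agent.Lib.Helper24.J2Ord.A5
import Cfsg.Agent.Lib.Helper24.J2Ord.F
import Cfsg.Agent.Lib.Helper31.GenFitting
import Cfsg.Agent.Lib.Helper2.PGroupFrattini

/-! Piece [C] of the S3313 farm. -/

set_option autoImplicit false
set_option linter.unusedSectionVars false

namespace Cfsg.Agent.Lib.Helper24.J2Ord

theorem pCore_eq_genFitting {X : Type*} [Group X] [Finite X]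
    (hex : Cfsg.IsExtraspecial 2 ↥(Cfsg.generalizedFittingSubgroup X))
    (hQ : Nat.card ↥(Cfsg.pCore 2 X) = 32) :
    Cfsg.pCore 2 X = Cfsg.generalizedFittingSubgroup X := by
  have : Fact (Nat.Prime 2) := ⟨Nat.prime_two⟩
  apply le_antisymm
  · have hp : IsPGroup 2 ↥(Cfsg.pCore 2 X) := IsPGroup.of_card (n := 5) (by rw [hQ]; norm_num)
    have h1 : Cfsg.pCore 2 X ≤ Cfsg.fittingSubgroup X :=
      le_sSup ⟨pCore_normal24 2 X, hp.isNilpotent⟩
    exact h1.trans le_sup_right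
  · exact le_sSup ⟨Cfsg.Agent.Lib.Helper31.genFitting_normal, hex.1.1⟩

theorem cfg_abs {X : Type*} [Group X] [Finite X] (z : X) (hzc : ∀ h : X, h * z = z * h)
    (hz : orderOf z = 2)
    (hex : Cfsg.IsExtraspecial 2 ↥(Cfsg.generalizedFittingSubgroup X))
    (hQ : Nat.card ↥(Cfsg.pCore 2 X) = 32)
    (K : Subgroup X) (e : ↥K ≃* alternatingGroup (Fin 5))
    (hKC : K ⊔ Cfsg.pCore 2 X = ⊤) (hKQ : K ⊓ Cfsg.pCore 2 X = ⊥) :
    Cfg X (Cfsg.pCore 2 X) K z := by
  have : Fact (Nat.Prime 2) := ⟨Nat.prime_two⟩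
  have hQF := pCore_eq_genFitting hex hQ
  rw [← hQF] at hex
  have hnorm := pCore_normal24 2 X
  set Q := Cfsg.pCore 2 X with hQdef
  obtain ⟨⟨hp, hfr, hco⟩, hc2⟩ := hex
  have z2 : z * z = 1 := by rw [← pow_two, ← hz]; exact pow_orderOf_eq_one z
  have z1 : z ≠ 1 := by
    intro h; rw [h, orderOf_one] at hz; omega
  have faith : ∀ h : X, (∀ a ∈ Q, h * a = a * h) → h ∈ Q := by
    intro h hh
    have : h ∈ Subgroup.centralizer (Cfsg.generalizedFittingSubgroup X : Set X) := by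
      rw [Subgroup.mem_centralizer_iff]
      intro a ha
      rw [← hQF] at ha
      exact (hh a ha).symm
    have h2 := Cfsg.Agent.Lib.Helper31.centralizer_genFitting_le this
    rw [← hQF] at h2
    exact h2
  have zQ : z ∈ Q := faith z (fun a _ => (hzc a).symm)
  have hcen : ∀ x : ↥Q, x ∈ Subgroup.center ↥Q → (x : X) = 1 ∨ (x : X) = z := by
    intro x hx
    have hsub : ({1, ⟨z, zQ⟩} : Set ↥Q) ⊆ (Subgroup.center ↥Q : Set ↥Q) := by
      intro y hy
      rcases hy with rfl | rfl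
      · exact (Subgroup.center ↥Q).one_mem
      · rw [SetLike.mem_coe, Subgroup.mem_center_iff]
        intro g
        exact Subtype.ext (hzc g)
    have hne : (1 : ↥Q) ≠ ⟨z, zQ⟩ := fun h => z1 (congrArg Subtype.val h).symm
    have hle : (Subgroup.center ↥Q : Set ↥Q).ncard ≤ ({1, ⟨z, zQ⟩} : Set ↥Q).ncard := by
      rw [Set.ncard_pair hne, ← Nat.card_coe_set_eq]
      exact hc2.le
    have heq := Set.eq_of_subset_of_ncard_le hsub hle (Set.toFinite _)
    have hx' : x ∈ (Subgroup.center ↥Q : Set ↥Q) := hx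
    rw [← heq] at hx'
    rcases hx' with h | h
    · left; rw [h]; rfl
    · right; rw [h]
  refine
    { zc := hzc, z2 := z2, z1 := z1, zQ := zQ, nQ := fun h a ha => hnorm.conj_mem a ha h,
      cardQ := hQ, sq := ?_, comm := ?_, cen := ?_, faith := faith, KQ := ?_, KQ' := ?_,
      K15 := ?_, K5 := ?_ }
  · intro a ha
    have h1 := Cfsg.Agent.Lib.Helper2.pow_p_mem_frattini hp (⟨a, ha⟩ : ↥Q)
    rw [hfr] at h1
    have := hcen _ h1
    simpa [pow_two] using this
  · intro a ha b hb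
    have h1 : (⟨a, ha⟩ : ↥Q) * ⟨b, hb⟩ * (⟨a, ha⟩ : ↥Q)⁻¹ * (⟨b, hb⟩ : ↥Q)⁻¹ ∈ commutator ↥Q := by
      have := Subgroup.commutator_mem_commutator (Subgroup.mem_top (⟨a, ha⟩ : ↥Q))
        (Subgroup.mem_top (⟨b, hb⟩ : ↥Q))
      rw [commutatorElement_def] at this
      exact this
    rw [hco] at h1
    have h2 := hcen _ h1
    have h3 : (((⟨a, ha⟩ : ↥Q) * ⟨b, hb⟩ * (⟨a, ha⟩ : ↥Q)⁻¹ * (⟨b, hb⟩ : ↥Q)⁻¹ : ↥Q) : X)
        = a * b * a⁻¹ * b⁻¹ := rfl
    rw [h3] at h2
    rcases h2 with h2 | h2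
    · left
      calc a * b = (a * b * a⁻¹ * b⁻¹) * (b * a) := by group
        _ = b * a := by rw [h2, one_mul]
    · right
      calc a * b = (a * b * a⁻¹ * b⁻¹) * (b * a) := by group
        _ = z * (b * a) := by rw [h2]
        _ = b * a * z := (hzc (b * a)).symm
  · intro a ha hab
    apply hcen ⟨a, ha⟩
    rw [Subgroup.mem_center_iff]
    intro g
    exact Subtype.ext (hab g g.2).symm
  · intro h
    have h1 : h ∈ ((Q ⊔ K : Subgroup X) : Set X) := by
      rw [sup_comm, hKC]; exact Set.mem_univ _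
    rw [Subgroup.normal_mul] at h1
    obtain ⟨b, hb, k, hk, rfl⟩ := h1
    exact ⟨b, hb, k, hk, rfl⟩
  · intro k hk hkQ
    have : k ∈ K ⊓ Q := ⟨hk, hkQ⟩
    rw [hKQ, Subgroup.mem_bot] at this
    exact this
  · rw [← a5_15]
    refine Nat.card_congr
      { toFun := fun k => ⟨e ⟨k.1, k.2.1⟩, ?_, ?_⟩
        invFun := fun k => ⟨(e.symm k.1 : X), (e.symm k.1).2, ?_, ?_⟩
        left_inv := ?_
        right_inv := ?_ }
    · rw [← map_mul]
      have : (⟨k.1, k.2.1⟩ : ↥K) * ⟨k.1, k.2.1⟩ = 1 := Subtype.ext k.2.2.1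
      rw [this, map_one]
    · intro h
      rw [map_eq_one_iff e e.injective] at h
      exact k.2.2.2 (congrArg Subtype.val h)
    · have : e.symm k.1 * e.symm k.1 = 1 := by rw [← map_mul, k.2.1, map_one]
      exact congrArg Subtype.val this
    · intro h
      have h' : e.symm k.1 = 1 := Subtype.ext h
      rw [map_eq_one_iff e.symm e.symm.injective] at h'
      exact k.2.2 h'
    · intro k
      apply Subtype.ext
      simp
    · intro k
      apply Subtype.ext
      simp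
  · intro k hk hk2 hk1
    have h1 : e ⟨k, hk⟩ * e ⟨k, hk⟩ = 1 := by
      rw [← map_mul]
      have : (⟨k, hk⟩ : ↥K) * ⟨k, hk⟩ = 1 := Subtype.ext hk2
      rw [this, map_one]
    have h2 : e ⟨k, hk⟩ ≠ 1 := by
      intro h
      rw [map_eq_one_iff e e.injective] at h
      exact hk1 (congrArg Subtype.val h)
    obtain ⟨k', h3, h4, h5⟩ := a5_5 _ h1 h2
    refine ⟨(e.symm k' : X), (e.symm k').2, ?_, ?_, ?_⟩
    · have : e.symm k' * e.symm k' = 1 := by rw [← map_mul, h3, map_one]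
      exact congrArg Subtype.val this
    · intro h
      have h' : e.symm k' = 1 := Subtype.ext h
      rw [map_eq_one_iff e.symm e.symm.injective] at h'
      exact h4 h'
    · have h6 : orderOf ((⟨k, hk⟩ : ↥K) * e.symm k') = orderOf (e ⟨k, hk⟩ * k') := by
        rw [← orderOf_injective e.toMonoidHom e.injective]
        simp
      have h7 : orderOf (((⟨k, hk⟩ : ↥K) * e.symm k' : ↥K) : X)
          = orderOf ((⟨k, hk⟩ : ↥K) * e.symm k') := Subgroup.orderOf_coe _
      exact h7.trans (h6.trans h5)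

variable {G : Type*} [Group G] [Finite G]

/-- [C] the hypotheses of S3313 give a `Cfg`. -/
theorem cfg_of_hyp (z : G) (hz : orderOf z = 2)
    (hex : Cfsg.IsExtraspecial 2 ↥(Cfsg.generalizedFittingSubgroup ↥(Subgroup.centralizer ({z} : Set G))))
    (hQ : Nat.card ↥(Cfsg.pCore 2 ↥(Subgroup.centralizer ({z} : Set G))) = 32)
    (K : Subgroup G) (hK : Nonempty (↥K ≃* alternatingGroup (Fin 5)))
    (hKC : K ⊔ (Cfsg.pCore 2 ↥(Subgroup.centralizer ({z} : Set G))).map (Subgroup.centralizer ({z} : Set G)).subtype = Subgroup.centralizer ({z} : Set G))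
    (hKQ : K ⊓ (Cfsg.pCore 2 ↥(Subgroup.centralizer ({z} : Set G))).map (Subgroup.centralizer ({z} : Set G)).subtype = ⊥) :
    Cfg ↥(Subgroup.centralizer ({z} : Set G)) (Cfsg.pCore 2 ↥(Subgroup.centralizer ({z} : Set G)))
      (K.subgroupOf (Subgroup.centralizer ({z} : Set G)))
      ⟨z, Subgroup.mem_centralizer_singleton_iff.2 rfl⟩ := by
  obtain ⟨e⟩ := hK
  have hKle : K ≤ Subgroup.centralizer ({z} : Set G) := by rw [← hKC]; exact le_sup_left
  apply cfg_abs _ _ _ hex hQ _ ((Subgroup.subgroupOfEquivOfLe hKle).trans e)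
  · apply Subgroup.map_injective (Subgroup.subtype_injective (Subgroup.centralizer ({z} : Set G)))
    rw [Subgroup.map_sup, Subgroup.subgroupOf_map_subtype, inf_eq_left.2 hKle, hKC,
      ← MonoidHom.range_eq_map, Subgroup.range_subtype]
  · rw [eq_bot_iff]
    intro x hx
    have : (x : G) ∈ K ⊓ (Cfsg.pCore 2 ↥(Subgroup.centralizer ({z} : Set G))).map
        (Subgroup.centralizer ({z} : Set G)).subtype :=
      ⟨Subgroup.mem_subgroupOf.1 hx.1, ⟨x, hx.2, rfl⟩⟩
    rw [hKQ, Subgroup.mem_bot] at this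
    rw [Subgroup.mem_bot]
    exact Subtype.ext this
  · intro h
    exact Subtype.ext (Subgroup.mem_centralizer_singleton_iff.1 h.2)
  · rw [← Subgroup.orderOf_coe]; exact hz

end Cfsg.Agent.Lib.Helper24.J2Ord
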