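import Mathlib

/-! Piece [Dz] of the S3313 farm. -/

set_option autoImplicit false
set_option linter.unusedSectionVars false

namespace Cfsg.Agent.Lib.Helper24.J2Ord

variable {G : Type*} [Group G] [Finite G]

lemma orderOf_of_isConj {x y : G} (h : IsConj x y) : orderOf x = orderOf y := by
  obtain ⟨c, rfl⟩ := isConj_iff.1 h
  exact (orderOf_injective (MulAut.conj c).toMonoidHom (MulAut.conj c).injective x).symm

lemma sq_of_order2 {x : G} (h : orderOf x = 2) : x * x = 1 := by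
  rw [← pow_two, ← h]; exact pow_orderOf_eq_one x

/-- In a dihedral group the reflections invert the rotations. -/
lemma dih_inv {u v w : G} (hu : u * u = 1) (hv : v * v = 1) (hw : w ∈ Subgroup.zpowers (u * v)) :
    u * w * u⁻¹ = w⁻¹ ∧ v * w * v⁻¹ = w⁻¹ := by
  obtain ⟨n, rfl⟩ := hw
  have hu' : u⁻¹ = u := inv_eq_of_mul_eq_one_left hu
  have hv' : v⁻¹ = v := inv_eq_of_mul_eq_one_left hv
  constructor
  · change u * (u * v) ^ n * u⁻¹ = _
    rw [← conj_zpow, ← inv_zpow]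
    congr 1
    rw [mul_inv_rev, hu', hv']
    calc u * (u * v) * u = (u * u) * v * u := by group
      _ = v * u := by rw [hu, one_mul]
  · change v * (u * v) ^ n * v⁻¹ = _
    rw [← conj_zpow, ← inv_zpow]
    congr 1
    rw [mul_inv_rev, hu', hv']
    calc v * (u * v) * v = v * u * (v * v) := by group
      _ = v * u := by rw [hv, mul_one]

/-- the reflections centralize an involution among the rotations. -/
lemma dih_comm {u v w : G} (hu : u * u = 1) (hv : v * v = 1) (hw : w ∈ Subgroup.zpowers (u * v))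
    (hw2 : w * w = 1) : u * w = w * u ∧ v * w = w * v := by
  have hw' : w⁻¹ = w := inv_eq_of_mul_eq_one_left hw2
  obtain ⟨h1, h2⟩ := dih_inv hu hv hw
  rw [hw'] at h1 h2
  exact ⟨mul_inv_eq_iff_eq_mul.1 h1, mul_inv_eq_iff_eq_mul.1 h2⟩

/-- [Dz] transfer of the count to `C_G(z)`. -/
theorem count_z_G (z t : G) (hz : orderOf z = 2) (ht : orderOf t = 2) (hzt : ¬ IsConj z t)
    (Q : Subgroup ↥(Subgroup.centralizer ({z} : Set G)))
    (hQz : ∀ x ∈ Q.map (Subgroup.centralizer ({z} : Set G)).subtype, orderOf x = 2 → IsConj x z)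
    (hCz : ∀ x ∈ Subgroup.centralizer ({z} : Set G), orderOf x = 2 →
      x ∉ Q.map (Subgroup.centralizer ({z} : Set G)).subtype → IsConj x t) :
    Nat.card {p : G × G // IsConj z p.1 ∧ IsConj t p.2 ∧ z ∈ Subgroup.zpowers (p.1 * p.2)} =
    Nat.card {p : ↥(Subgroup.centralizer ({z} : Set G)) × ↥(Subgroup.centralizer ({z} : Set G)) //
      p.1 ∈ Q ∧ orderOf p.1 = 2 ∧ p.2 ∉ Q ∧ orderOf p.2 = 2 ∧
      (⟨z, Subgroup.mem_centralizer_singleton_iff.2 rfl⟩ : ↥(Subgroup.centralizer ({z} : Set G)))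
        ∈ Subgroup.zpowers (p.1 * p.2)} := by
  have hmap : ∀ x : ↥(Subgroup.centralizer ({z} : Set G)),
      (x : G) ∈ Q.map (Subgroup.centralizer ({z} : Set G)).subtype ↔ x ∈ Q := by
    intro x
    constructor
    · rintro ⟨y, hy, hxy⟩
      have : y = x := Subtype.ext hxy
      rw [← this]; exact hy
    · intro hx
      exact ⟨x, hx, rfl⟩
  symm
  refine Nat.card_eq_of_bijective
    (fun p => ⟨((p.1.1 : G), (p.1.2 : G)), ?_, ?_, ?_⟩) ⟨?_, ?_⟩
  · obtain ⟨⟨u, v⟩, h1, h2, h3, h4, h5⟩ := p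
    exact (hQz u ((hmap u).2 h1) (by rw [Subgroup.orderOf_coe]; exact h2)).symm
  · obtain ⟨⟨u, v⟩, h1, h2, h3, h4, h5⟩ := p
    exact (hCz v v.2 (by rw [Subgroup.orderOf_coe]; exact h4) (fun h => h3 ((hmap v).1 h))).symm
  · obtain ⟨⟨u, v⟩, h1, h2, h3, h4, n, h5⟩ := p
    exact ⟨n, by simpa using congrArg Subtype.val h5⟩
  · rintro ⟨⟨u, v⟩, hp⟩ ⟨⟨u', v'⟩, hp'⟩ h
    have h' := congrArg Subtype.val h
    simp only [Prod.mk.injEq] at h'
    exact Subtype.ext (Prod.ext (Subtype.ext h'.1) (Subtype.ext h'.2))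
  · rintro ⟨⟨u, v⟩, h1, h2, h3⟩
    simp only at h1 h2 h3
    have hu2 : orderOf u = 2 := by rw [← orderOf_of_isConj h1, hz]
    have hv2 : orderOf v = 2 := by rw [← orderOf_of_isConj h2, ht]
    obtain ⟨c1, c2⟩ := dih_comm (sq_of_order2 hu2) (sq_of_order2 hv2) h3 (sq_of_order2 hz)
    have huC : u ∈ Subgroup.centralizer ({z} : Set G) :=
      Subgroup.mem_centralizer_singleton_iff.2 c1
    have hvC : v ∈ Subgroup.centralizer ({z} : Set G) :=
      Subgroup.mem_centralizer_singleton_iff.2 c2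
    refine ⟨⟨(⟨u, huC⟩, ⟨v, hvC⟩), ?_, ?_, ?_, ?_, ?_⟩, rfl⟩
    · by_contra hn
      exact hzt (h1.trans (hCz u huC hu2 (fun h => hn ((hmap ⟨u, huC⟩).1 h))))
    · rw [← Subgroup.orderOf_coe]; exact hu2
    · intro hn
      exact hzt ((h2.trans (hQz v ((hmap ⟨v, hvC⟩).2 hn) hv2)).symm)
    · rw [← Subgroup.orderOf_coe]; exact hv2
    · obtain ⟨n, hn⟩ := h3
      exact ⟨n, Subtype.ext (by simpa using hn)⟩

end Cfsg.Agent.Lib.Helper24.J2Ord
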