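import Mathlib
import Cfsg.Agent.Lib.Helper24.J2Ord.Defs

/-! Piece [E1] of the S3313 farm: the Gauss sum. -/

set_option autoImplicit false
set_option linter.unusedSectionVars false

namespace Cfsg.Agent.Lib.Helper24.J2Ord

variable {H : Type*} [Group H] [Finite H] {Q K : Subgroup H} {z : H}

open Classical in
/-- `1` on elements of order at most two, `-1` otherwise. -/
noncomputable def chi (a : H) : ℤ := if a * a = 1 then 1 else -1

open Classical in
/-- `1` on commuting pairs, `-1` otherwise. -/
noncomputable def psi (a c : H) : ℤ := if a * c = c * a then 1 else -1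

lemma chi_sq (a : H) : chi a * chi a = 1 := by
  unfold chi; split_ifs <;> norm_num

lemma not_comm_of (c : Cfg H Q K z) {a b : H} (h : a * b = b * a * z) : a * b ≠ b * a := by
  intro h2
  rw [h2] at h
  exact c.z1 (mul_eq_left.mp h.symm)

lemma sq_mul_comm {a b : H} (h : a * b = b * a) : (a * b) * (a * b) = (a * a) * (b * b) := by
  calc (a * b) * (a * b) = a * (b * a) * b := by group
    _ = a * (a * b) * b := by rw [h]
    _ = _ := by group

lemma sq_mul_ncomm (c : Cfg H Q K z) {a b : H} (h : a * b = b * a * z) :
    (a * b) * (a * b) = (a * a) * (b * b) * z := by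
  have h2 : b * a = a * b * z := by rw [h, mul_assoc, c.z2, mul_one]
  calc (a * b) * (a * b) = a * (b * a) * b := by group
    _ = a * (a * b * z) * b := by rw [h2]
    _ = a * a * b * (z * b) := by group
    _ = a * a * b * (b * z) := by rw [c.zc b]
    _ = _ := by group

lemma chi_mul (c : Cfg H Q K z) {a b : H} (ha : a ∈ Q) (hb : b ∈ Q) :
    chi (a * b) = chi a * chi b * psi a b := by
  have hz1 := c.z1
  have hz2 := c.z2
  unfold chi psi
  rcases c.comm a ha b hb with h | h
  · rw [sq_mul_comm h, if_pos h]
    rcases c.sq a ha with h1 | h1 <;> rcases c.sq b hb with h2 | h2 <;> simp [h1, h2, hz1, hz2]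
  · rw [sq_mul_ncomm c h, if_neg (not_comm_of c h)]
    rcases c.sq a ha with h1 | h1 <;> rcases c.sq b hb with h2 | h2 <;> simp [h1, h2, hz1, hz2]

lemma psi_mul (c : Cfg H Q K z) {a b d : H} (ha : a ∈ Q) (hb : b ∈ Q) (hd : d ∈ Q) :
    psi (a * b) d = psi a d * psi b d := by
  have hz1 := c.z1
  unfold psi
  rcases c.comm a ha d hd with h | h <;> rcases c.comm b hb d hd with h' | h'
  · have : a * b * d = d * (a * b) := by
      calc a * b * d = a * (b * d) := by group
        _ = a * (d * b) := by rw [h']
        _ = (a * d) * b := by group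
        _ = d * a * b := by rw [h]
        _ = _ := by group
    rw [if_pos this, if_pos h, if_pos h']; norm_num
  · have : a * b * d = d * (a * b) * z := by
      calc a * b * d = a * (b * d) := by group
        _ = a * (d * b * z) := by rw [h']
        _ = (a * d) * b * z := by group
        _ = d * a * b * z := by rw [h]
        _ = _ := by group
    rw [if_neg (not_comm_of c this), if_pos h, if_neg (not_comm_of c h')]; norm_num
  · have : a * b * d = d * (a * b) * z := by
      calc a * b * d = a * (b * d) := by group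
        _ = a * (d * b) := by rw [h']
        _ = (a * d) * b := by group
        _ = d * a * z * b := by rw [h]
        _ = d * a * (z * b) := by group
        _ = d * a * (b * z) := by rw [c.zc b]
        _ = _ := by group
    rw [if_neg (not_comm_of c this), if_neg (not_comm_of c h), if_pos h']; norm_num
  · have : a * b * d = d * (a * b) := by
      calc a * b * d = a * (b * d) := by group
        _ = a * (d * b * z) := by rw [h']
        _ = (a * d) * b * z := by group
        _ = d * a * z * b * z := by rw [h]
        _ = d * a * (z * b) * z := by group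
        _ = d * a * (b * z) * z := by rw [c.zc b]
        _ = d * a * b * (z * z) := by group
        _ = _ := by rw [c.z2]; group
    rw [if_pos this, if_neg (not_comm_of c h), if_neg (not_comm_of c h')]; norm_num

/-- [E1] Gauss sum -/
theorem card_T (c : Cfg H Q K z) : (T Q).ncard = 12 ∨ (T Q).ncard = 20 := by
  classical
  have := Fintype.ofFinite ↥Q
  have hcard : Fintype.card ↥Q = 32 := by rw [← Nat.card_eq_fintype_card]; exact c.cardQ
  set S : ℤ := ∑ a : ↥Q, chi (a : H) with hS
  -- inner sums
  have hinner : ∀ d : ↥Q, (∑ a : ↥Q, psi (a : H) (d : H))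
      = if (d : H) = 1 ∨ (d : H) = z then 32 else 0 := by
    intro d
    split_ifs with hd
    · have : ∀ a : ↥Q, psi (a : H) (d : H) = 1 := by
        intro a
        unfold psi
        rw [if_pos]
        rcases hd with hd | hd
        · rw [hd]; simp
        · rw [hd]; exact c.zc a
      simp only [this, Finset.sum_const, Finset.card_univ, hcard]
      norm_num
    · obtain ⟨a0, ha0Q, ha0⟩ : ∃ a0 ∈ Q, (d : H) * a0 ≠ a0 * d := by
        by_contra hcon
        push Not at hcon
        exact hd (c.cen d d.2 hcon)
      have h1 : psi a0 (d : H) = -1 := by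
        unfold psi
        rw [if_neg (fun h => ha0 h.symm)]
      have h2 : ∑ a : ↥Q, psi (a : H) (d : H) = ∑ a : ↥Q, psi (((⟨a0, ha0Q⟩ : ↥Q) * a : ↥Q) : H) (d : H) :=
        (Equiv.sum_comp (Equiv.mulLeft (⟨a0, ha0Q⟩ : ↥Q)) (fun a : ↥Q => psi (a : H) (d : H))).symm
      have h3 : ∑ a : ↥Q, psi (((⟨a0, ha0Q⟩ : ↥Q) * a : ↥Q) : H) (d : H)
          = - ∑ a : ↥Q, psi (a : H) (d : H) := by
        rw [← Finset.sum_neg_distrib]
        refine Finset.sum_congr rfl fun a _ => ?_
        rw [Subgroup.coe_mul, psi_mul c ha0Q a.2 d.2, h1]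
        ring
      rw [h3] at h2
      linarith
  have hSS : S * S = 64 := by
    have e1 : S * S = ∑ a : ↥Q, ∑ b : ↥Q, chi (a : H) * chi (b : H) := by
      rw [hS, Finset.sum_mul_sum]
    have e2 : ∀ a : ↥Q, ∑ b : ↥Q, chi (a : H) * chi (b : H)
        = ∑ d : ↥Q, chi (d : H) * psi (a : H) (d : H) := by
      intro a
      rw [← Equiv.sum_comp (Equiv.mulLeft a) (fun b : ↥Q => chi (a : H) * chi (b : H))]
      refine Finset.sum_congr rfl fun d _ => ?_
      simp only [Equiv.coe_mulLeft, Subgroup.coe_mul]
      rw [chi_mul c a.2 d.2]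
      calc chi (a : H) * (chi (a : H) * chi (d : H) * psi (a : H) (d : H))
          = (chi (a : H) * chi (a : H)) * (chi (d : H) * psi (a : H) (d : H)) := by ring
        _ = _ := by rw [chi_sq, one_mul]
    rw [e1, Finset.sum_congr rfl (fun a _ => e2 a), Finset.sum_comm]
    simp only [← Finset.mul_sum, hinner]
    have hz' : (⟨z, c.zQ⟩ : ↥Q) ≠ 1 := fun h => c.z1 (congrArg Subtype.val h)
    have e3 : ∀ d : ↥Q, chi (d : H) * (if (d : H) = 1 ∨ (d : H) = z then (32 : ℤ) else 0)
        = (if d = 1 then 32 else 0) + (if d = ⟨z, c.zQ⟩ then 32 else 0) := by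
      intro d
      by_cases h1 : d = 1
      · subst h1
        have h11 : (((1 : ↥Q) : H) = 1 ∨ ((1 : ↥Q) : H) = z) := Or.inl rfl
        rw [if_pos h11, if_pos rfl, if_neg (fun h => hz' h.symm)]
        simp [chi]
      · by_cases h2 : d = ⟨z, c.zQ⟩
        · subst h2
          have h11 : ((((⟨z, c.zQ⟩ : ↥Q)) : H) = 1 ∨ (((⟨z, c.zQ⟩ : ↥Q)) : H) = z) := Or.inr rfl
          rw [if_pos h11, if_neg hz', if_pos rfl]
          simp [chi, c.z2]
        · rw [if_neg, if_neg h1, if_neg h2]
          · simp
          · rintro (h | h)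
            · exact h1 (Subtype.ext h)
            · exact h2 (Subtype.ext h)
    rw [Finset.sum_congr rfl (fun d _ => e3 d), Finset.sum_add_distrib]
    simp
  have hS8 : S = 8 ∨ S = -8 := by
    have : (S - 8) * (S + 8) = 0 := by linear_combination hSS
    rcases mul_eq_zero.1 this with h | h
    · left; linarith
    · right; linarith
  -- `S` in terms of `|T|`
  set n := (Finset.univ.filter (fun a : ↥Q => (a : H) * a = 1)).card with hn
  have hSn : S = 2 * (n : ℤ) - 32 := by
    have e : ∀ a : ↥Q, chi (a : H) = 2 * (if (a : H) * a = 1 then (1 : ℤ) else 0) - 1 := by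
      intro a
      unfold chi
      split_ifs <;> norm_num
    rw [hS, Finset.sum_congr rfl (fun a _ => e a), Finset.sum_sub_distrib, ← Finset.mul_sum,
      Finset.sum_boole]
    simp [hcard, hn]
  have hT : (T Q).ncard = n := by
    have : T Q = Subtype.val '' ((Finset.univ.filter (fun a : ↥Q => (a : H) * a = 1) : Finset ↥Q) : Set ↥Q) := by
      ext x
      simp only [T, Set.mem_ofPred_eq, Set.mem_image, Finset.coe_filter, Finset.mem_univ, true_and]
      constructor
      · rintro ⟨h1, h2⟩
        exact ⟨⟨x, h1⟩, h2, rfl⟩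
      · rintro ⟨a, h1, rfl⟩
        exact ⟨a.2, h1⟩
    rw [this, Set.ncard_image_of_injective _ Subtype.val_injective, Set.ncard_coe_finset]
  rw [hT]
  rcases hS8 with h | h
  · right; omega
  · left; omega

end Cfsg.Agent.Lib.Helper24.J2Ord
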