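import Mathlib
import Cfsg.Agent.Lib.Helper24.J2Ord.E1

/-! Pieces [E2], [E3] of the S3313 farm. -/

set_option autoImplicit false
set_option linter.unusedSectionVars false

namespace Cfsg.Agent.Lib.Helper24.J2Ord

variable {H : Type*} [Group H] [Finite H] {Q K : Subgroup H} {z : H}

lemma conj_fix_mod5 (g : H) (hg : g ^ 5 = 1) (S : Set H) (hS : ∀ a ∈ S, g * a * g⁻¹ ∈ S) :
    S.ncard ≡ {a | a ∈ S ∧ g * a * g⁻¹ = a}.ncard [MOD 5] := by
  classical
  have := Fintype.ofFinite ↥S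
  let f : Function.End ↥S := fun a => ⟨g * a * g⁻¹, hS a a.2⟩
  have hpow : ∀ n : ℕ, ∀ a : ↥S, (((f ^ n) a : ↥S) : H) = g ^ n * a * (g ^ n)⁻¹ := by
    intro n
    induction n with
    | zero =>
      intro a
      rw [pow_zero, pow_zero]
      change (a : H) = _
      simp
    | succ n ih =>
      intro a
      rw [pow_succ']
      change g * (((f ^ n) a : ↥S) : H) * g⁻¹ = _
      rw [ih, pow_succ']
      group
  have hf : f ^ 5 ^ 1 = 1 := by
    funext a
    apply Subtype.ext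
    rw [pow_one, hpow, hg]
    change _ = (a : H)
    simp
  have : Fact (Nat.Prime 5) := ⟨by norm_num⟩
  have h := Equiv.Perm.card_fixedPoints_modEq hf
  have e1 : Fintype.card ↥S = S.ncard := by
    rw [← Nat.card_eq_fintype_card, Nat.card_coe_set_eq]
  have e2 : Fintype.card (Function.fixedPoints f) = {a | a ∈ S ∧ g * a * g⁻¹ = a}.ncard := by
    rw [← Nat.card_eq_fintype_card, Nat.card_coe_set_eq]
    have : {a | a ∈ S ∧ g * a * g⁻¹ = a} = Subtype.val '' (Function.fixedPoints f) := by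
      ext x
      simp only [Set.mem_ofPred_eq, Set.mem_image, Function.mem_fixedPoints, Function.IsFixedPt]
      constructor
      · rintro ⟨h1, h2⟩
        exact ⟨⟨x, h1⟩, Subtype.ext h2, rfl⟩
      · rintro ⟨a, h1, rfl⟩
        exact ⟨a.2, congrArg Subtype.val h1⟩
    rw [this, Set.ncard_image_of_injective _ Subtype.val_injective]
  rw [e1, e2] at h
  exact h

lemma fix5a (c : Cfg H Q K z) (g : H) (hg : orderOf g = 5) (hgQ : g ∉ Q) :
    ∀ b ∈ Q, g * b * g⁻¹ = b → b = 1 ∨ b = z := by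
  have hg5 : g ^ 5 = 1 := by rw [← hg]; exact pow_orderOf_eq_one g
  have hmod := conj_fix_mod5 g hg5 (Q : Set H) (fun a ha => c.nQ g a ha)
  set F : Subgroup H := Q ⊓ Subgroup.centralizer {g} with hF
  have hFset : {a | a ∈ (Q : Set H) ∧ g * a * g⁻¹ = a} = (F : Set H) := by
    ext x
    simp only [Set.mem_ofPred_eq, SetLike.mem_coe, hF, Subgroup.mem_inf,
      Subgroup.mem_centralizer_singleton_iff]
    constructor
    · rintro ⟨h1, h2⟩
      exact ⟨h1, (mul_inv_eq_iff_eq_mul.1 h2).symm⟩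
    · rintro ⟨h1, h2⟩
      exact ⟨h1, (mul_inv_eq_iff_eq_mul.2 h2.symm)⟩
  rw [hFset] at hmod
  have hQc : (Q : Set H).ncard = 32 := by
    rw [← Nat.card_coe_set_eq]; exact c.cardQ
  have hFc : (F : Set H).ncard = Nat.card F := by
    rw [← Nat.card_coe_set_eq]; rfl
  rw [hQc, hFc] at hmod
  have hdvd : Nat.card F ∣ 32 := by
    rw [← c.cardQ]
    exact Subgroup.card_dvd_of_le inf_le_left
  have h2 : Nat.card F = 2 ∨ Nat.card F = 32 := by
    have : Nat.card F ∣ 2 ^ 5 := by norm_num; exact hdvd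
    obtain ⟨k, hk, hk2⟩ := (Nat.dvd_prime_pow Nat.prime_two).1 this
    rw [hk2] at hmod ⊢
    interval_cases k <;> simp_all [Nat.ModEq]
  rcases h2 with h2 | h2
  · intro b hb hgb
    have hsub : ({1, z} : Set H) ⊆ (F : Set H) := by
      intro x hx
      rcases hx with rfl | rfl
      · exact F.one_mem
      · exact ⟨c.zQ, Subgroup.mem_centralizer_singleton_iff.2 (c.zc g).symm⟩
    have hle : (F : Set H).ncard ≤ ({1, z} : Set H).ncard := by
      rw [Set.ncard_pair (Ne.symm c.z1), hFc, h2]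
    have heq := Set.eq_of_subset_of_ncard_le hsub hle (Set.toFinite _)
    have hbF : b ∈ (F : Set H) := by
      rw [← hFset]; exact ⟨hb, hgb⟩
    rw [← heq] at hbF
    exact hbF
  · exfalso
    apply hgQ
    apply c.faith
    intro a ha
    have hFQ : F = Q := by
      apply Subgroup.eq_of_le_of_card_ge inf_le_left
      rw [h2, c.cardQ]
    have : a ∈ F := by rw [hFQ]; exact ha
    exact (Subgroup.mem_centralizer_singleton_iff.1 this.2).symm

/-- [E2] -/
theorem fix5 (c : Cfg H Q K z) (g : H) (hg : orderOf g = 5) (hgQ : g ∉ Q) :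
    ∀ b ∈ Q, (g * b * g⁻¹ = b ∨ g * b * g⁻¹ = b * z) → b = 1 ∨ b = z := by
  intro b hb h
  rcases h with h | h
  · exact fix5a c g hg hgQ b hb h
  · have hg5 : g ^ 5 = 1 := by rw [← hg]; exact pow_orderOf_eq_one g
    have ho : orderOf (g ^ 2) = 5 := by
      rw [Nat.Coprime.orderOf_pow (by rw [hg]; norm_num), hg]
    have hn : g ^ 2 ∉ Q := by
      intro h2
      apply hgQ
      have : g = (g ^ 2) ^ 3 := by
        rw [← pow_mul]
        calc g = g ^ 5 * g := by rw [hg5, one_mul]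
          _ = _ := by group
      rw [this]
      exact Q.pow_mem h2 3
    apply fix5a c (g ^ 2) ho hn b hb
    calc g ^ 2 * b * (g ^ 2)⁻¹ = g * (g * b * g⁻¹) * g⁻¹ := by rw [pow_two]; group
      _ = g * (b * z) * g⁻¹ := by rw [h]
      _ = (g * b * g⁻¹) * (g * z * g⁻¹) := by group
      _ = (b * z) * (z * g * g⁻¹) := by rw [h, c.zc g]
      _ = b * (z * z) := by group
      _ = b := by rw [c.z2, mul_one]

/-- an element of order five of `K`, outside `Q`. -/
lemma exists_g5 (c : Cfg H Q K z) : ∃ g : H, orderOf g = 5 ∧ g ∉ Q := by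
  have h15 := c.K15
  have : Nonempty {k : H // k ∈ K ∧ k * k = 1 ∧ k ≠ 1} := by
    by_contra hne
    rw [not_nonempty_iff] at hne
    rw [Nat.card_of_isEmpty] at h15
    omega
  obtain ⟨k, hkK, hk2, hk1⟩ := this
  obtain ⟨k', hk'K, -, -, ho⟩ := c.K5 k hkK hk2 hk1
  refine ⟨k * k', ho, fun hQ => ?_⟩
  have := c.KQ' _ (K.mul_mem hkK hk'K) hQ
  rw [this, orderOf_one] at ho
  omega

lemma conj_mem_T (c : Cfg H Q K z) (g : H) : ∀ a ∈ T Q, g * a * g⁻¹ ∈ T Q := by
  rintro a ⟨h1, h2⟩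
  refine ⟨c.nQ g a h1, ?_⟩
  calc g * a * g⁻¹ * (g * a * g⁻¹) = g * (a * a) * g⁻¹ := by group
    _ = 1 := by rw [h2]; group

/-- [E3] -/
theorem card_T12 (c : Cfg H Q K z) : (T Q).ncard = 12 := by
  obtain ⟨g, hg, hgQ⟩ := exists_g5 c
  have hg5 : g ^ 5 = 1 := by rw [← hg]; exact pow_orderOf_eq_one g
  have hmod := conj_fix_mod5 g hg5 (T Q) (conj_mem_T c g)
  have : {a | a ∈ T Q ∧ g * a * g⁻¹ = a} = {1, z} := by
    ext x
    simp only [Set.mem_ofPred_eq, Set.mem_insert_iff, Set.mem_singleton_iff]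
    constructor
    · rintro ⟨h1, h2⟩
      exact fix5a c g hg hgQ x h1.1 h2
    · rintro (rfl | rfl)
      · exact ⟨⟨Q.one_mem, by simp⟩, by simp⟩
      · exact ⟨⟨c.zQ, c.z2⟩, by rw [c.zc g]; group⟩
  rw [this, Set.ncard_pair (Ne.symm c.z1)] at hmod
  rcases card_T c with h | h
  · exact h
  · rw [h] at hmod
    exact absurd hmod (by decide)

end Cfsg.Agent.Lib.Helper24.J2Ord
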